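import Cfsg.Agent.Lib.SylNum.Cop
import Cfsg.Agent.Lib.BSW.ClsA
import Cfsg.Agent.Lib.H5ClassGraph
import Cfsg.Agent.Lib.CharFrobenius
import Cfsg.Agent.Lib.ClassCount

/-!
# The prime graph on class sizes: primes with a central-in-normalizer Sylow subgroup
-/

set_option autoImplicit false
set_option linter.unusedSectionVars false

namespace CfsgLib.ClsG

open Subgroup Cfsg CfsgLib.H1 CfsgLib.SylNum
open scoped commutatorElement

variable {G : Type*} [Group G] [Finite G]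

/-- class size -/
noncomputable abbrev cs (x : G) : ℕ := (centralizer ({x} : Set G)).index

theorem jordan {L M : Subgroup G} (h : ∀ g ∈ L, ∃ x ∈ L, x⁻¹ * g * x ∈ M) : L ≤ M :=
  subgroupOf_eq_top.1 (eq_top_of_forall_conj_mem _ fun g =>
    (h g g.2).elim fun x hx => ⟨⟨x, hx.1⟩, hx.2⟩)

theorem le_cent1 {P : Subgroup G} {x : G} : P ≤ centralizer ({x} : Set G) ↔ x ∈ 𝐂(P) :=
  ⟨fun h => mem_centralizer_iff.2 fun _ hy => mem_centralizer_singleton_iff.1 (h hy),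
    fun h y hy => mem_centralizer_singleton_iff.2 (mem_centralizer_iff.1 h y hy)⟩

theorem cs_conj (g x : G) : cs (g⁻¹ * x * g) = cs x := by
  have := Frob.index_centralizer_conj g⁻¹ x
  rwa [inv_inv] at this

variable {p q : ℕ} [hp : Fact p.Prime] [hq : Fact q.Prime]

theorem exists_conj_cent (P : Sylow p G) {x : G} (h : ¬ p ∣ cs x) :
    ∃ g : G, g⁻¹ * x * g ∈ 𝐂((P : Subgroup G)) := by
  obtain ⟨T, hT⟩ := BSW.exists_sylow_le_of_not_dvd h
  obtain ⟨g, rfl⟩ := MulAction.exists_smul_eq G P T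
  refine ⟨g, mem_centralizer_iff.2 fun y hy => ?_⟩
  have := mem_centralizer_singleton_iff.1 (hT (sylow_coe_smul_eq_map g P ▸ conj_mem_map_conj hy))
  calc y * (g⁻¹ * x * g) = g⁻¹ * (g * y * g⁻¹ * x) * g := by group
    _ = _ := by rw [this]; group

theorem not_dvd_cs (P : Sylow p G) {x : G} (h : x ∈ 𝐂((P : Subgroup G))) : ¬ p ∣ cs x :=
  fun e => P.not_dvd_index (e.trans (index_dvd_of_le (le_cent1.2 h)))

theorem ito (P : Sylow p G) (Q : Sylow q G) (h : ∀ x : G, p ∣ cs x → ¬ q ∣ cs x) :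
    𝐍((P : Subgroup G)) ≤ 𝐂((P : Subgroup G)) ∨ 𝐍((Q : Subgroup G)) ≤ 𝐂((Q : Subgroup G)) := by
  refine (BSW.normalizer_le_or_of_cover fun g => ?_).imp
    (le_normalizer_centralizer le_rfl).trans (le_normalizer_centralizer le_rfl).trans
  by_cases e : p ∣ cs g
  · exact Or.inr ((exists_conj_cent Q (h g e)).elim fun x hx => ⟨x⁻¹, by rwa [inv_inv]⟩)
  · exact Or.inl ((exists_conj_cent P e).elim fun x hx => ⟨x⁻¹, by rwa [inv_inv]⟩)

variable {P : Sylow p G} {Q : Sylow q G}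

theorem frat (h : 𝐍((P : Subgroup G)) ≤ 𝐂((P : Subgroup G))) {L : Subgroup G} [L.Normal]
    (hL : ⁅(⊤ : Subgroup G), (P : Subgroup G)⁆ ≤ L) (g : G) :
    ∃ l ∈ L, ∃ c ∈ 𝐂((P : Subgroup G)), g = l * c := by
  have h1 : (P : Subgroup G) ≤ 𝐍(L) := le_top.trans (normalizer_eq_top L).ge
  obtain ⟨k, hk, h2⟩ := (IsSylowIn.of_sylow P (le_sup_left : _ ≤ (P : Subgroup G) ⊔ L)).frattini_elem
    (g := g) (mem_normalizer_of_conj_mem fun x hx => by
      obtain ⟨a, ha, n, hn, rfl⟩ := (mem_sup_iff_of_le_normalizer h1).1 hx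
      rw [show g * (a * n) * g⁻¹ = ⁅g, a⁆ * a * (g * n * g⁻¹) by group]
      exact mul_mem (mul_mem (mem_sup_right (hL (commutator_mem_commutator (mem_top g) ha)))
        (mem_sup_left ha)) (mem_sup_right (Normal.conj_mem inferInstance n hn g)))
  obtain ⟨a, ha, n, hn, rfl⟩ := (mem_sup_iff_of_le_normalizer h1).1 hk
  exact ⟨n⁻¹, inv_mem hn, _, mul_mem (inv_mem (h (le_normalizer ha))) (h h2), by group⟩

theorem exists_conj_cent' (h : 𝐍((P : Subgroup G)) ≤ 𝐂((P : Subgroup G))) {L : Subgroup G}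
    [L.Normal] (hL : ⁅(⊤ : Subgroup G), (P : Subgroup G)⁆ ≤ L) {x : G} (hx : ¬ p ∣ cs x) :
    ∃ l ∈ L, l⁻¹ * x * l ∈ 𝐂((P : Subgroup G)) := by
  obtain ⟨g, hg⟩ := exists_conj_cent P hx
  obtain ⟨l, hl, c, hc, rfl⟩ := frat h hL g
  refine ⟨l, hl, ?_⟩
  rw [show l⁻¹ * x * l = c * ((l * c)⁻¹ * x * (l * c)) * c⁻¹ by group]
  exact mul_mem (mul_mem hc hg) (inv_mem hc)

theorem not_le_cent (h : 𝐍((P : Subgroup G)) ≤ 𝐂((P : Subgroup G))) {L : Subgroup G}
    [L.Normal] (hL : ⁅(⊤ : Subgroup G), (P : Subgroup G)⁆ ≤ L) {x : G} (hx : p ∣ cs x) :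
    ¬ L ≤ 𝐂((P : Subgroup G)) := fun e => by
  obtain ⟨l, hl, c, hc, rfl⟩ := frat h hL x
  exact not_dvd_cs P (mul_mem (e hl) hc) hx

theorem exists_dvd_cs (h : 𝐍((P : Subgroup G)) ≤ 𝐂((P : Subgroup G))) {L : Subgroup G}
    [L.Normal] (hL : ⁅(⊤ : Subgroup G), (P : Subgroup G)⁆ ≤ L) {x : G} (hx : p ∣ cs x) :
    ∃ a ∈ L, p ∣ cs a := by
  by_contra e
  push Not at e
  exact not_le_cent h hL hx (jordan fun g hg => exists_conj_cent' h hL (e g hg))

theorem exists_compl (h : 𝐍((P : Subgroup G)) ≤ 𝐂((P : Subgroup G))) :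
    ∃ K : Subgroup G, K.Normal ∧ (Nat.card K).Coprime p ∧ commutator G ≤ K ∧
      ∀ g : G, (orderOf g).Coprime p → g ∈ K := by
  obtain ⟨b1, b2⟩ := burnside' (IsSylowIn.sylow_top P) (inf_le_right.trans h)
  have hn := normal_of_le_normalizer_top (le_normalizer_piCoreOf (π := {p}ᶜ) (⊤ : Subgroup G))
  refine ⟨_, hn, piCoreOf_compl_coprime p ⊤, commutator_le.2 fun x _ y _ => ?_,
    fun g => b1 g (mem_top g)⟩
  have h1 : (P : Subgroup G) ≤ 𝐍(piCoreOf {p}ᶜ (⊤ : Subgroup G)) :=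
    le_top.trans (le_normalizer_piCoreOf ⊤)
  obtain ⟨k, hk, a, ha, rfl⟩ := (mem_sup_iff_of_le_normalizer' h1).1 (b2.ge (mem_top x))
  obtain ⟨l, hl, b, hb, rfl⟩ := (mem_sup_iff_of_le_normalizer' h1).1 (b2.ge (mem_top y))
  have e : b * a = a * b := mem_centralizer_iff.1 (h (le_normalizer ha)) b hb
  rw [← QuotientGroup.eq_one_iff, ← QuotientGroup.mk'_apply, map_commutatorElement, map_mul, map_mul,
    QuotientGroup.mk'_apply _ k, QuotientGroup.mk'_apply _ l, (QuotientGroup.eq_one_iff k).2 hk,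
    (QuotientGroup.eq_one_iff l).2 hl, one_mul, one_mul, ← map_commutatorElement,
    commutatorElement_eq_one_iff_mul_comm.2 e.symm, map_one]

theorem not_dvd_relIndex_norm (hpq : p ≠ q) (h : 𝐍((Q : Subgroup G)) ≤ 𝐂((Q : Subgroup G)))
    {H : Subgroup G} (hH : (P : Subgroup G) ≤ H) : ¬ q ∣ (𝐍((P : Subgroup G))).relIndex H := by
  obtain ⟨K, -, k1, -, k2⟩ := exists_compl h
  have k3 : ∀ T : Sylow p G, (T : Subgroup G) ≤ K := fun T x hx => by
    obtain ⟨k, hk⟩ := orderOf_eq_pow_of_mem_isPGroup T.isPGroup' hx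
    exact k2 x (hk ▸ ((Nat.coprime_primes hp.out hq.out).2 hpq).pow_left k)
  have k4 : nu p H = nu p (H ⊓ K) := by
    unfold nu
    congr 1
    ext T
    simp only [Set.mem_setOf_eq, le_inf_iff]
    exact ⟨fun e => ⟨e, k3 T⟩, fun e => e.1⟩
  rw [← nu_eq_relIndex hH, k4, nu_eq_relIndex (le_inf hH (k3 P))]
  exact fun e => (Nat.Prime.coprime_iff_not_dvd hq.out).1 k1.symm
    ((e.trans (relIndex_dvd_card _ _)).trans (card_dvd_of_le inf_le_right))

theorem mem_of_cent {u : G} (hu : u ∈ 𝐂((P : Subgroup G))) {k : ℕ} (hk : orderOf u = p ^ k) :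
    u ∈ (P : Subgroup G) := by
  have h1 : zpowers u ≤ 𝐍((P : Subgroup G)) := zpowers_le_of_mem (centralizer_le_normalizer _ hu)
  have := P.is_maximal' (isPGroup_sup_of_le_normalizer (isPGroup_zpowers' hk) P.isPGroup' h1)
    le_sup_right
  exact this.le (mem_sup_left (mem_zpowers u))

theorem exists_regular (hpq : p ≠ q) (h1 : 𝐍((P : Subgroup G)) ≤ 𝐂((P : Subgroup G)))
    (h2 : 𝐍((Q : Subgroup G)) ≤ 𝐂((Q : Subgroup G))) {x : G} (hx : q ∣ cs x) (hx' : ¬ p ∣ cs x) :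
    ∃ c ∈ 𝐂((P : Subgroup G)), (orderOf c).Coprime p ∧ q ∣ cs c := by
  obtain ⟨g, hg⟩ := exists_conj_cent P hx'
  rw [← cs_conj g] at hx
  obtain ⟨u, hu, c, hc, e, -, h3, h4⟩ := exists_pi_part {p} (g⁻¹ * x * g)
  have hc' := zpowers_le_of_mem hg hc
  refine ⟨c, hc', (isPiNum_compl_singleton_iff hp.out).1 h4, by_contra fun e' => ?_⟩
  obtain ⟨k, hk⟩ := (isPiNum_singleton_iff hp.out (orderOf_pos u).ne').1 h3
  have h5 := mem_of_cent (zpowers_le_of_mem hg hu) hk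
  have h6 : 𝐍((P : Subgroup G)) ⊓ centralizer {c} ≤ centralizer {g⁻¹ * x * g} := fun y hy => by
    rw [mem_centralizer_singleton_iff, e, ← mul_assoc, ← mem_centralizer_iff.1 (h1 hy.1) u h5,
      mul_assoc, mem_centralizer_singleton_iff.1 hy.2, mul_assoc]
  have h7 := hx.trans (index_dvd_of_le h6)
  rw [← relIndex_mul_index (inf_le_right : _ ≤ centralizer {c}), inf_relIndex_right] at h7
  exact (hq.out.dvd_mul.1 h7).elim (not_dvd_relIndex_norm hpq h2 (le_cent1.2 hc')) e'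

theorem not_both {x y : G} (hpq : p ≠ q) (hx : p ∣ cs x) (hy : q ∣ cs y)
    (h : ∀ a b : G, p ∣ cs a → q ∣ cs b → (cs a).Coprime (cs b))
    (h1 : 𝐍((P : Subgroup G)) ≤ 𝐂((P : Subgroup G)))
    (h2 : 𝐍((Q : Subgroup G)) ≤ 𝐂((Q : Subgroup G))) : False := by
  have n1 : ∀ a : G, p ∣ cs a → ¬ q ∣ cs a := fun a ha e =>
    hp.out.one_lt.ne' (Nat.eq_one_of_dvd_coprimes (h a a ha e) ha ha)
  obtain ⟨Q', hQ'⟩ := BSW.exists_sylow_le_of_not_dvd (p := q) (H := 𝐍((P : Subgroup G))) (by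
    have := not_dvd_relIndex_norm (P := P) hpq h2 le_top
    rwa [relIndex_top_right] at this)
  have h2' : 𝐍((Q' : Subgroup G)) ≤ 𝐂((Q' : Subgroup G)) := by
    obtain ⟨g, rfl⟩ := MulAction.exists_smul_eq G Q Q'
    rw [sylow_coe_smul_eq_map, normalizer_map_conj, centralizer_map_conj]
    exact map_mono h2
  obtain ⟨c, c1, c2, c3⟩ := exists_regular hpq h1 h2' hy fun e => n1 y e hy
  obtain ⟨d, d1, d2, d3⟩ := exists_regular hpq.symm h2' h1 hx (n1 x hx)
  have k : ∀ u ∈ (P : Subgroup G), ∀ w ∈ (Q' : Subgroup G), ∀ g : G,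
      Commute ⁅g, u⁆ w ∧ Commute ⁅g, w⁆ u := fun u hu w hw g => by
    obtain ⟨i, hi⟩ := orderOf_eq_pow_of_mem_isPGroup P.isPGroup' hu
    obtain ⟨j, hj⟩ := orderOf_eq_pow_of_mem_isPGroup Q'.isPGroup' hw
    have e1 : Commute u c := mem_centralizer_iff.1 c1 u hu
    have e2 : Commute w d := mem_centralizer_iff.1 d1 w hw
    have e3 : (orderOf u).Coprime (orderOf c) := hi ▸ (c2.symm.pow_left i)
    have e4 : (orderOf w).Coprime (orderOf d) := hj ▸ (d2.symm.pow_left j)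
    have e5 : (cs w).Coprime (cs u) :=
      ((h _ _ (d3.trans (H5.index_dvd_index_mul_right e2 e4))
        (c3.trans (H5.index_dvd_index_mul_right e1 e3))).coprime_dvd_left
        (H5.index_dvd_index_mul_left e2 e4)).coprime_dvd_right (H5.index_dvd_index_mul_left e1 e3)
    have e6 : Commute u w := mem_centralizer_iff.1 (h1 (hQ' hw)) u hu
    constructor
    · obtain ⟨a, ha, b, hb, rfl⟩ := ClassCount.exists_mul_of_coprime_index e5 g
      have f1 : Commute a w := mem_centralizer_singleton_iff.1 ha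
      have f2 : b * u = u * b := mem_centralizer_singleton_iff.1 hb
      rw [show ⁅a * b, u⁆ = a * (b * u) * b⁻¹ * a⁻¹ * u⁻¹ by group, f2, mul_assoc a,
        mul_inv_cancel_right]
      exact ((f1.mul_left e6).mul_left f1.inv_left).mul_left e6.inv_left
    · obtain ⟨a, ha, b, hb, rfl⟩ := ClassCount.exists_mul_of_coprime_index e5.symm g
      have f1 : Commute a u := mem_centralizer_singleton_iff.1 ha
      have f2 : b * w = w * b := mem_centralizer_singleton_iff.1 hb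
      rw [show ⁅a * b, w⁆ = a * (b * w) * b⁻¹ * a⁻¹ * w⁻¹ by group, f2, mul_assoc a,
        mul_inv_cancel_right]
      exact ((f1.mul_left e6.symm).mul_left f1.inv_left).mul_left e6.symm.inv_left
  have k1 : ⁅(⊤ : Subgroup G), (P : Subgroup G)⁆ ≤ 𝐂((Q' : Subgroup G)) :=
    commutator_le.2 fun g _ u hu => mem_centralizer_iff.2 fun w hw => (k u hu w hw g).1.symm
  have k2 : ⁅(⊤ : Subgroup G), (Q' : Subgroup G)⁆ ≤ 𝐂((P : Subgroup G)) :=
    commutator_le.2 fun g _ w hw => mem_centralizer_iff.2 fun u hu => (k u hu w hw g).2.symm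
  have i1 := normal_of_le_normalizer_top (normalizer_commutator_ge_left ⊤ (P : Subgroup G))
  have i2 := normal_of_le_normalizer_top (normalizer_commutator_ge_left ⊤ (Q' : Subgroup G))
  have k3 : ⁅(⊤ : Subgroup G), (Q' : Subgroup G)⁆ ≤ 𝐂(⁅(⊤ : Subgroup G), (P : Subgroup G)⁆) :=
    commutator_le.2 fun g _ w hw => mul_mem (Normal.conj_mem inferInstance w
      (le_centralizer_iff.1 k1 hw) g) (inv_mem (le_centralizer_iff.1 k1 hw))
  obtain ⟨a, ha, a1⟩ := exists_dvd_cs h1 le_rfl hx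
  obtain ⟨b, hb, b1⟩ := exists_dvd_cs h2' le_rfl hy
  by_cases e : p ∣ cs (a * b)
  · obtain ⟨l, hl, e1⟩ := exists_conj_cent' h2' le_rfl (n1 _ e)
    refine not_dvd_cs Q' (x := l⁻¹ * b * l) ?_ (by rwa [cs_conj])
    have e2 : a * l = l * a := mem_centralizer_iff.1 (k3 hl) a ha
    rw [show l⁻¹ * b * l = a⁻¹ * (l⁻¹ * (l * a) * l⁻¹ * b * l) by group, ← e2,
      show l⁻¹ * (a * l) * l⁻¹ * b * l = l⁻¹ * (a * b) * l by group]
    exact mul_mem (inv_mem (k1 ha)) e1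
  · obtain ⟨l, hl, e1⟩ := exists_conj_cent' h1 le_rfl e
    refine not_dvd_cs P (x := l⁻¹ * a * l) ?_ (by rwa [cs_conj])
    have e2 : l * b = b * l := mem_centralizer_iff.1 (k3 hb) l hl
    rw [show l⁻¹ * a * l = l⁻¹ * a * (l * b) * b⁻¹ by group, e2, ← mul_assoc, mul_assoc l⁻¹]
    exact mul_mem e1 (inv_mem (k2 hb))

theorem comm_le_cent {x : G} (hy : q ∣ cs x) (h2 : 𝐍((Q : Subgroup G)) ≤ 𝐂((Q : Subgroup G)))
    (h : ∀ b : G, q ∣ cs b → (Nat.card (commutator G)).Coprime (cs b)) :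
    commutator G ≤ 𝐂(commutator G) := by
  have h1 : ∀ b : G, q ∣ cs b → b ∈ 𝐂(commutator G) := fun b hb =>
    le_cent1.1 (H5.le_of_normal_of_coprime_index (h b hb))
  have h3 : ⁅(⊤ : Subgroup G), (Q : Subgroup G)⁆ ≤ commutator G := commutator_mono le_rfl le_top
  set Z := commutator G ⊓ 𝐂(commutator G)
  have h4 : ∀ g ∈ commutator G, ∃ z ∈ Z, ∃ c ∈ 𝐂((Q : Subgroup G)), z * c = g := fun g hg =>
    (mem_sup_iff_of_le_normalizer' (le_top.trans (normalizer_eq_top Z).ge)).1 (jordan (fun g hg => by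
      by_cases e : q ∣ cs g
      · exact ⟨1, one_mem _, by simpa using mem_sup_left (mem_inf.2 ⟨hg, h1 g e⟩)⟩
      · exact (exists_conj_cent' h2 h3 e).imp fun l hl => ⟨hl.1, mem_sup_right hl.2⟩) hg)
  obtain ⟨a, ha, a1⟩ : ∃ a ∈ Z, a ∉ 𝐂((Q : Subgroup G)) := by
    by_contra e
    push Not at e
    refine not_le_cent h2 h3 hy fun g hg => ?_
    obtain ⟨z, hz, c, hc, rfl⟩ := h4 g hg
    exact mul_mem (e z hz) hc
  intro g hg
  obtain ⟨z, hz, c, hc, rfl⟩ := h4 g hg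
  have hc' : c ∈ commutator G := (mul_mem_cancel_left (mem_inf.1 hz).1).1 hg
  refine mul_mem (mem_inf.1 hz).2 ((mul_mem_cancel_left (mem_inf.1 ha).2).1 (h1 _ (by_contra fun e => a1 ?_)))
  obtain ⟨l, hl, e1⟩ := exists_conj_cent' h2 h3 e
  obtain ⟨z', hz', c', hc'', rfl⟩ := h4 l hl
  have e2 : a * c * z' = z' * (a * c) := mem_centralizer_iff.1 (mem_inf.1 hz').2 _ (mul_mem (mem_inf.1 ha).1 hc')
  rw [show (z' * c')⁻¹ * (a * c) * (z' * c') = c'⁻¹ * (z'⁻¹ * (a * c * z')) * c' by group, e2,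
    inv_mul_cancel_left] at e1
  exact (mul_mem_cancel_right hc).1 ((mul_mem_cancel_left (inv_mem hc'')).1
    ((mul_mem_cancel_right hc'').1 e1))

end CfsgLib.ClsG
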